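import Mathlib
import Cfsg.Prelude.Def_Characters

/-!
# S3701: definitions and package statements (team project, coordinator helper70)

`H ≅ 3³:2²` (the even part of `S₃ × S₃ × S₃`) is strongly 3-embedded in `G`
(`N_G(T) = H`, `C_G(t) ≤ H` for `1 ≠ t ∈ T`); then `G = H`.

Generator form: `T = ⟨a⟩ × ⟨b⟩ × ⟨c⟩`, involutions `w` (centralizes `a`, inverts `b, c`),
`w'` (inverts `a`, centralizes `b`, inverts `c`), `H = T ⋊ ⟨w, w'⟩`.
-/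

set_option autoImplicit false

namespace Cfsg.Agent.Lib.Helper70.S3701

universe u

/-- The generating set of the frozen statement. -/
def S0 : Set (Equiv.Perm (Fin 9)) :=
  {Equiv.swap (0 : Fin 9) 1 * Equiv.swap 1 2, Equiv.swap (3 : Fin 9) 4 * Equiv.swap 4 5,
    Equiv.swap (6 : Fin 9) 7 * Equiv.swap 7 8, Equiv.swap (0 : Fin 9) 1 * Equiv.swap 3 4,
    Equiv.swap (0 : Fin 9) 1 * Equiv.swap 6 7}

/-- Generators of `H` transported from `Sym(9)`: `a, b, c` the three 3-cycles,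
`u = (01)(34)`, `v = (01)(67)`. -/
structure Gens {G : Type u} [Group G] (H : Subgroup G) (a b c u v : G) : Prop where
  haH : a ∈ H
  hbH : b ∈ H
  hcH : c ∈ H
  huH : u ∈ H
  hvH : v ∈ H
  a1 : a ≠ 1
  b1 : b ≠ 1
  c1 : c ≠ 1
  a3 : a ^ 3 = 1
  b3 : b ^ 3 = 1
  c3 : c ^ 3 = 1
  ab : a * b = b * a
  ac : a * c = c * a
  bc : b * c = c * b
  u2 : u * u = 1
  v2 : v * v = 1
  uv : u * v = v * u
  ua : u * a * u⁻¹ = a⁻¹
  ub : u * b * u⁻¹ = b⁻¹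
  uc : u * c * u⁻¹ = c
  va : v * a * v⁻¹ = a⁻¹
  vb : v * b * v⁻¹ = b
  vc : v * c * v⁻¹ = c⁻¹
  gen : ∀ h ∈ H, h ∈ Subgroup.closure ({a, b, c, u, v} : Set G)

/-- The local data in diagonal form, with a distinguished coordinate `a`:
`w` centralizes `a` and inverts `b, c`; `w'` inverts `a, c` and centralizes `b`. -/
structure Data {G : Type u} [Group G] (H T : Subgroup G) (a b c w w' : G) : Prop where
  haT : a ∈ T
  hbT : b ∈ T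
  hcT : c ∈ T
  hwH : w ∈ H
  hw'H : w' ∈ H
  hTH : T ≤ H
  a3 : a ^ 3 = 1
  b3 : b ^ 3 = 1
  c3 : c ^ 3 = 1
  ab : a * b = b * a
  ac : a * c = c * a
  bc : b * c = c * b
  w2 : w * w = 1
  w'2 : w' * w' = 1
  ww' : w * w' = w' * w
  wa : w * a * w⁻¹ = a
  wb : w * b * w⁻¹ = b⁻¹
  wc : w * c * w⁻¹ = c⁻¹
  w'a : w' * a * w'⁻¹ = a⁻¹
  w'b : w' * b * w'⁻¹ = b
  w'c : w' * c * w'⁻¹ = c⁻¹
  T_eq : ∀ t ∈ T, ∃ i j k : ℕ, t = a ^ i * b ^ j * c ^ k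
  H_eq : ∀ h ∈ H, ∃ t ∈ T, ∃ e f : ℕ, h = t * w ^ e * w' ^ f
  cardT : Nat.card T = 27
  cardH : Nat.card H = 108
  indep : ∀ i j k : ℕ, a ^ i * b ^ j * c ^ k = 1 → 3 ∣ i ∧ 3 ∣ j ∧ 3 ∣ k
  hN : Subgroup.normalizer (T : Set G) = H
  hC : ∀ t ∈ T, t ≠ 1 → Subgroup.centralizer ({t} : Set G) ≤ H

/-! ## Packages -/

/-- GENS: transport the generators through the given isomorphism. -/
def PkgGens : Prop :=
  ∀ {G : Type u} [Group G] [Finite G] (H : Subgroup G),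
    Nonempty (↥H ≃* ↥(Subgroup.closure S0)) → ∃ a b c u v : G, Gens H a b c u v

/-- SETUP: normal forms, orders, independence. -/
def PkgSetup : Prop :=
  ∀ {G : Type u} [Group G] [Finite G] (H T : Subgroup G) (a b c u v : G),
    Gens H a b c u v → T ≤ H → Nat.card T = 27 →
    Subgroup.normalizer (T : Set G) = H →
    (∀ t ∈ T, t ≠ 1 → Subgroup.centralizer ({t} : Set G) ≤ H) →
    Data H T a b c (u * v) v

/-- SYMM: the two symmetries of the data. -/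
def PkgSymm : Prop :=
  ∀ {G : Type u} [Group G] [Finite G] (H T : Subgroup G) (a b c w w' : G),
    Data H T a b c w w' → Data H T a c b w (w * w') ∧ Data H T b a c w' w

/-- TI: a conjugation moving an element of `T^#` into `H` lies in `H`. -/
def PkgTI : Prop :=
  ∀ {G : Type u} [Group G] [Finite G] (H T : Subgroup G) (a b c w w' : G),
    Data H T a b c w w' → ∀ g t : G, t ∈ T → t ≠ 1 → g * t * g⁻¹ ∈ H → g ∈ H

/-- SYL3: `T` is a Sylow 3-subgroup: every 3-subgroup is conjugate into `T`. -/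
def PkgSyl3 : Prop :=
  ∀ {G : Type u} [Group G] [Finite G] (H T : Subgroup G) (a b c w w' : G),
    Data H T a b c w w' → ∀ R : Subgroup G, IsPGroup 3 R → ∃ g : G, ∀ r ∈ R, g * r * g⁻¹ ∈ T

/-- NOFUSE: `w'` is not conjugate to `w` in `G`. -/
def PkgNoFuse : Prop :=
  PkgTI.{u} → PkgSyl3.{u} →
  ∀ {G : Type u} [Group G] [Finite G] (H T : Subgroup G) (a b c w w' : G),
    Data H T a b c w w' → ∀ g : G, g * w' * g⁻¹ ≠ w

/-- NU: the linear character `ν` of `C = C_H(a) = T⟨w⟩` with `ν(a^i b^j c^k w^e) = ω^i`. -/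
def PkgNu : Prop :=
  ∀ {G : Type u} [Group G] [Finite G] (H T : Subgroup G) (a b c w w' : G),
    Data H T a b c w w' →
    ∃ (C : Subgroup G) (ν : ↥C →* ℂˣ) (hnorm : ∀ x ∈ H, ∀ y ∈ C, x * y * x⁻¹ ∈ C),
      C ≤ H ∧ T ≤ C ∧ w ∈ C ∧ Nat.card H = 2 * Nat.card C ∧
      (∀ (x : G) (hx : x ∈ H), x ∉ C → ∀ y : C,
        ν ⟨x * y * x⁻¹, hnorm x hx y y.2⟩ = (ν y)⁻¹) ∧
      (∀ y : C, ν y ^ 3 = 1) ∧ (∃ ha : a ∈ C, ν ⟨a, ha⟩ ≠ 1)

/-- EXCGEN: the exceptional pair of `Ind_C^G (1 - ν) = 1 + E - F` (general form). -/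
def PkgExcGen : Prop :=
  ∀ {G : Type u} [Group G] [Finite G] (C N : Subgroup G) (ν : ↥C →* ℂˣ),
    C ≤ N → Nat.card N = 2 * Nat.card C →
    ∀ (hnorm : ∀ x ∈ N, ∀ y ∈ C, x * y * x⁻¹ ∈ C),
    (∀ (x : G) (hx : x ∈ N), x ∉ C → ∀ y : C,
      ν ⟨x * y * x⁻¹, hnorm x hx y y.2⟩ = (ν y)⁻¹) →
    (∀ y : C, ν y ≠ 1 → ∀ g : G, g * y * g⁻¹ ∈ C → g ∈ N) →
    (∀ y : C, ν y ^ 3 = 1) → (∃ y : C, ν y ≠ 1) →
    ∃ E F : G → ℂ, Cfsg.IsIrrCharacter G E ∧ Cfsg.IsIrrCharacter G F ∧ F 1 = E 1 + 1 ∧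
      (∀ g : G, (∀ (x : G) (y : C), ν y ≠ 1 → x * g * x⁻¹ ≠ (y : G)) → F g - E g = 1) ∧
      (∀ y : C, ν y ≠ 1 → F (y : G) - E (y : G) = -2)

/-- The general kernel statement. -/
def KerGenStmt : Prop :=
  ∀ {G : Type u} [Group G] [Finite G] (C N : Subgroup G) (ν : ↥C →* ℂˣ),
    C ≤ N → Nat.card N = 2 * Nat.card C →
    ∀ (hnorm : ∀ x ∈ N, ∀ y ∈ C, x * y * x⁻¹ ∈ C),
    (∀ (x : G) (hx : x ∈ N), x ∉ C → ∀ y : C,
      ν ⟨x * y * x⁻¹, hnorm x hx y y.2⟩ = (ν y)⁻¹) →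
    (∀ y : C, ν y ≠ 1 → ∀ g : G, g * y * g⁻¹ ∈ C → g ∈ N) →
    (∀ y : C, ν y ^ 3 = 1) → (∃ y : C, ν y ≠ 1) →
    ∀ z : G, z * z = 1 → (∀ g : G, g * z * g⁻¹ ∈ N → g * z * g⁻¹ ∈ C) →
    ∃ L : Subgroup G, L.Normal ∧ z ∈ L ∧ ∀ y : C, ν y ≠ 1 → (y : G) ∉ L

/-- KERGEN: an involution all of whose conjugates in `N` lie in `C` is in the common kernel
of the exceptional pair. -/
def PkgKerGen : Prop := PkgExcGen.{u} → KerGenStmt.{u}

/-- LOCAL: the normal subgroup `L ∋ w`, `L ∌ a`. -/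
def PkgLocal : Prop :=
  KerGenStmt.{u} → PkgNu.{u} → PkgTI.{u} →
  ∀ {G : Type u} [Group G] [Finite G] (H T : Subgroup G) (a b c w w' : G),
    Data H T a b c w w' → (∀ g : G, g * w' * g⁻¹ ≠ w) → (∀ g : G, g * (w * w') * g⁻¹ ≠ w) →
    ∃ L : Subgroup G, L.Normal ∧ w ∈ L ∧ a ∉ L

/-- END: three kernels force `G = H`. -/
def PkgEnd : Prop :=
  PkgTI.{u} → PkgSyl3.{u} →
  ∀ {G : Type u} [Group G] [Finite G] (H T : Subgroup G) (a b c w w' : G),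
    Data H T a b c w w' → ∀ L1 L2 L3 : Subgroup G, L1.Normal → L2.Normal → L3.Normal →
      w ∈ L1 → a ∉ L1 → w' ∈ L2 → b ∉ L2 → w * w' ∈ L3 → c ∉ L3 → H = ⊤

/-! ## Assembly -/

theorem s3701_of (hGens : PkgGens.{u}) (hSetup : PkgSetup.{u}) (hSymm : PkgSymm.{u})
    (hTI : PkgTI.{u}) (hSyl : PkgSyl3.{u}) (hNF : PkgNoFuse.{u}) (hNu : PkgNu.{u})
    (hExc : PkgExcGen.{u}) (hKer : PkgKerGen.{u}) (hLoc : PkgLocal.{u}) (hEnd : PkgEnd.{u})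
    {G : Type u} [Group G] [Finite G] (H : Subgroup G)
    (hH : Nonempty (↥H ≃* ↥(Subgroup.closure S0)))
    (T : Subgroup G) (hTH : T ≤ H) (hT : Nat.card T = 27)
    (hN : Subgroup.normalizer (T : Set G) = H)
    (hC : ∀ t ∈ T, t ≠ 1 → Subgroup.centralizer ({t} : Set G) ≤ H) : H = ⊤ := by
  obtain ⟨a, b, c, u, v, hg⟩ := hGens H hH
  have D := hSetup H T a b c u v hg hTH hT hN hC
  obtain ⟨D13, D2⟩ := hSymm H T a b c (u * v) v D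
  obtain ⟨D2s, -⟩ := hSymm H T b a c v (u * v) D2
  obtain ⟨-, D3⟩ := hSymm H T a c b (u * v) (u * v * v) D13
  obtain ⟨D3s, -⟩ := hSymm H T c a b (u * v * v) (u * v) D3
  have hK : KerGenStmt.{u} := hKer hExc
  obtain ⟨L1, hL1n, hwL1, haL1⟩ := hLoc hK hNu hTI H T a b c (u * v) v D
    (hNF hTI hSyl H T a b c (u * v) v D) (hNF hTI hSyl H T a c b (u * v) (u * v * v) D13)
  obtain ⟨L2, hL2n, hwL2, hbL2⟩ := hLoc hK hNu hTI H T b a c v (u * v) D2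
    (hNF hTI hSyl H T b a c v (u * v) D2) (hNF hTI hSyl H T b c a v (v * (u * v)) D2s)
  obtain ⟨L3, hL3n, hwL3, hcL3⟩ := hLoc hK hNu hTI H T c a b (u * v * v) (u * v) D3
    (hNF hTI hSyl H T c a b (u * v * v) (u * v) D3)
    (hNF hTI hSyl H T c b a (u * v * v) (u * v * v * (u * v)) D3s)
  exact hEnd hTI hSyl H T a b c (u * v) v D L1 L2 L3 hL1n hL2n hL3n hwL1 haL1 hwL2 hbL2
    hwL3 hcL3

end Cfsg.Agent.Lib.Helper70.S3701
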